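import Cfsg.Agent.Lib.TC.Data.Fi23S0.Arr
import Cfsg.Agent.Lib.TC.Data.Fi23S0.K0
import Cfsg.Agent.Lib.TC.Data.Fi23S0.K1
import Cfsg.Agent.Lib.TC.Data.Fi23S0.K2
import Cfsg.Agent.Lib.TC.Data.Fi23S0.K3
import Cfsg.Agent.Lib.TC.Data.Fi23S0.K4
import Cfsg.Agent.Lib.TC.Data.Fi23S0.K5
import Cfsg.Agent.Lib.TC.Data.Fi23S0.P0
import Cfsg.Agent.Lib.TC.Data.Fi23S0.P1
import Cfsg.Agent.Lib.TC.Data.Fi23S0.P2

set_option autoImplicit false

namespace Cfsg.Agent.Lib.TC.Data.Fi23S0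

open Cfsg.Agent.Lib.TC

theorem doneK : Done Fk 166400 := by
  have h0 := Done.zero Fk
  have h1 : Done Fk 27734 := Done.step h0 K0_ok rfl
  have h2 : Done Fk 55468 := Done.step h1 K1_ok rfl
  have h3 : Done Fk 83202 := Done.step h2 K2_ok rfl
  have h4 : Done Fk 110936 := Done.step h3 K3_ok rfl
  have h5 : Done Fk 138670 := Done.step h4 K4_ok rfl
  have h6 : Done Fk 166400 := Done.step h5 K5_ok rfl
  exact h6

theorem doneP : Done Fp 14080 := by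
  have h0 := Done.zero Fp
  have h1 : Done Fp 4694 := Done.step h0 P0_ok rfl
  have h2 : Done Fp 9388 := Done.step h1 P1_ok rfl
  have h3 : Done Fp 14080 := Done.step h2 P2_ok rfl
  exact h3

noncomputable def invp (j : ℕ) : ℕ := List.getD [0,1,2,3,4,5,6,7,8] j 0

theorem hsig : ∀ j, j < ([0,1,2,3,4,5,6,8,9] : List ℕ).length → ([0,1,2,3,4,5,6,8,9] : List ℕ).getD j 0 < G.Fi23.sys.ng ∧ invp j < ([0,1,2,3,4,5,6,8,9] : List ℕ).length ∧ ([0,1,2,3,4,5,6,8,9] : List ℕ).getD (invp j) 0 = G.Fi23.sys.inv (([0,1,2,3,4,5,6,8,9] : List ℕ).getD j 0) := by decide +kernel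

theorem hlett : ∀ w ∈ words, ∀ g ∈ w, g < 10 := by decide +kernel

theorem hlet2 : ∀ w ∈ words, ∀ g ∈ w, g < ([0,1,2,3,4,5,6,8,9] : List ℕ).length := by decide +kernel

theorem hrelW : ∀ w ∈ words.take 47, isPseudo ([0,1,2,3,4,5,6,8,9] : List ℕ).length invp w = true ∨ (w.map fun j => ([0,1,2,3,4,5,6,8,9] : List ℕ).getD j 0) ∈ G.Fi23.relWords := by decide +kernel

theorem hsubW : ∀ w ∈ words.drop 47, ∃ g ∈ ([1,2,3,4,5,6,8,9] : List ℕ), (w.map fun j => ([0,1,2,3,4,5,6,8,9] : List ℕ).getD j 0) = [g] := by decide +kernel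

theorem hnm0 : aN 0 = 0 := by decide +kernel

theorem hnrel : cert.nrel ≤ cert.nW := by decide +kernel

theorem hnW : cert.nW = words.length := by decide +kernel

theorem idx : (G.Fi23.sys.letL [1,2,3,4,5,6,8,9]).relIndex (G.Fi23.sys.letL [0,1,2,3,4,5,6,8,9]) ≠ 0 ∧ (G.Fi23.sys.letL [1,2,3,4,5,6,8,9]).relIndex (G.Fi23.sys.letL [0,1,2,3,4,5,6,8,9]) ≤ 14080 :=
  G.Fi23.sys.relIndex_letL [0,1,2,3,4,5,6,8,9] [1,2,3,4,5,6,8,9] invp hsig cert words rfl rfl rfl hnW hnrel hlett hlet2 (fun w hw => (hrelW w hw).imp id G.Fi23.of_mem_relWords) hsubW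
    (fun k hk => guard_zero 166400 _ k hk) doneK 14080 aN tT (by decide) hnm0 doneP

end Cfsg.Agent.Lib.TC.Data.Fi23S0
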